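import Cfsg.Agent.Lib.Helper3.Stcs6

set_option autoImplicit false
set_option maxRecDepth 100000

namespace Cfsg.Agent.Lib.Helper3.L27u

open Cfsg.Agent.Lib.Helper11 Cfsg.Agent.Lib.Helper3

set_option maxHeartbeats 0

noncomputable def ntl : List (List (ℕ × ℕ)) := [[], [(0xac9e, 16), (0x8, 8), (0xc0a0106, 4), (0x22200202, 2), (0x41450401, 1), (0x22200202, 2), (0xc0a0000, 4), (0x8, 8), (0xac86, 16)], [(0xec04, 16), (0x50078, 8), (0xb0709, 4), (0x20222120, 2), (0x41144015, 1), (0x22002020, 2), (0x80400, 4), (0xc8007c, 8), (0xe2a6, 16)], [(0xe2a6, 16), (0x37007c, 8), (0x700030f, 4), (0x221202, 2), (0x41410451, 1), (0x22200202, 2), (0x4000006, 4), (0xfa0078, 8), (0xec04, 16)], [(0x4f4, 16), (0xd1, 8), (0x7010c, 4), (0x2113231, 2), (0x141154, 1), (0x222200, 2), (0x80004, 4), (0x8, 8), (0xf4, 16)], [(0xfe78, 16), (0xcf0085, 8), (0x201080a, 4), (0x31030330, 2), (0x4150511, 1), (0x0, 2), (0xa0808, 4), (0xa40086, 8), (0xf7c4, 16)], [(0xf7c4, 16),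 (0x5b0079, 8), (0x5000108, 4), (0x30333003, 2), (0x51014105, 1), (0x22200, 2), (0xe020008, 4), (0x30007a, 8), (0xfe78, 16)], [(0x4f4, 16), (0xd1, 8), (0x7010c, 4), (0x2113231, 2), (0x141154, 1), (0x222200, 2), (0x80004, 4), (0x8, 8), (0xf4, 16)], [(0xdd14, 16), (0x80000b, 8), (0xd0e0002, 4), (0x2300022, 2), (0x4040111, 1), (0x2000220, 2), (0x40e0200, 4), (0x800020, 8), (0xd914, 16)]]
noncomputable def INV : ℕ := 9042185489440
abbrev deg : ℕ := 28

theorem setup : NetSetup ntl deg 5 INV 8 where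
  hok := by decide +kernel
  hstab := by decide +kernel
  hlen := by decide +kernel
  h0 := by decide +kernel
  hINV := by decide +kernel
  hINV0 := by decide +kernel
  htriv := by decide +kernel

end Cfsg.Agent.Lib.Helper3.L27u
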